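import Cfsg.Agent.Fus.Grp
import Cfsg.Agent.Lib.Helper27.FusNormal

/-!
The fusion system on `T` generated by a group `A` of automorphisms of `T` containing `Inn(T)`
(the fusion system of `T ⋊ A/Inn(T)` when `Inn(T)` is a Sylow subgroup of `A`); its saturation.
-/

set_option autoImplicit false

namespace Cfsg.Agent.Lib.Helper27.Fus

open Cfsg Cfsg.FusionSystem Cfsg.Agent.Fus

variable {Ω : Type*} [Group Ω]

/-- The restrictions of the members of `A ≤ Aut(T)` form a fusion system over `T`. -/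
def autSys (T : Subgroup Ω) (A : Subgroup (MulAut T)) (hA : Inn T ≤ A) : FusionSystem T where
  Hom P := {φ | ∃ hP : P ≤ T, ∃ a ∈ A, φ = resAut hP a}
  le_of_mem := by
    rintro P φ ⟨hP, a, -, rfl⟩
    exact ⟨hP, fun x => (a _).2⟩
  injective_of_mem := by
    rintro P φ ⟨hP, a, -, rfl⟩ x y hxy
    have h1 : a ⟨x, hP x.2⟩ = a ⟨y, hP y.2⟩ := Subtype.ext hxy
    exact Subtype.ext (congrArg (fun z : T => (z : Ω)) (a.injective h1))
  conj_mem := by
    intro P g hP hg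
    exact ⟨hP, MulAut.conj ⟨g, hg⟩, hA ⟨_, rfl⟩, rfl⟩
  comp_mem := by
    rintro P Q φ ψ ⟨hP, a, ha, rfl⟩ ⟨hQ, b, hb, rfl⟩ h
    exact ⟨hP, b * a, A.mul_mem hb ha, rfl⟩
  inv_mem := by
    rintro P φ ⟨hP, a, ha, rfl⟩
    have hr : (resAut hP a).range ≤ T := by
      rintro _ ⟨x, rfl⟩
      exact (a _).2
    refine ⟨resAut hr a⁻¹, ⟨hr, a⁻¹, A.inv_mem ha, rfl⟩, fun x => ?_⟩
    show ((a⁻¹ ⟨((a ⟨x, hP x.2⟩ : T) : Ω), _⟩ : T) : Ω) = x
    have : (⟨((a ⟨x, hP x.2⟩ : T) : Ω), hr ⟨x, rfl⟩⟩ : T) = a ⟨x, hP x.2⟩ := rfl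
    rw [this, MulAut.inv_apply_self]

variable {T : Subgroup Ω} {A : Subgroup (MulAut T)} {hA : Inn T ≤ A}

theorem mem_autSys_hom {P : Subgroup Ω} {φ : P →* Ω} :
    φ ∈ (autSys T A hA).Hom P ↔ ∃ hP : P ≤ T, ∃ a ∈ A, φ = resAut hP a := Iff.rfl

theorem autSys_autGroup_self : (autSys T A hA).autGroup T = A := by
  ext α
  rw [mem_autGroup_iff _ le_rfl]
  constructor
  · rintro ⟨_, a, ha, h⟩
    have : α = a := by
      ext x
      exact congrArg (fun f : T →* Ω => f x) h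
    rw [this]; exact ha
  · intro hα
    exact ⟨le_rfl, α, hα, rfl⟩

theorem mem_autSys_autGroup_iff {P : Subgroup Ω} (hP : P ≤ T) (α : MulAut P) :
    α ∈ (autSys T A hA).autGroup P ↔ ∃ a ∈ A, ∀ x : P, ((α x : P) : Ω) = ((a ⟨x, hP x.2⟩ : T) : Ω) := by
  rw [mem_autGroup_iff _ hP]
  constructor
  · rintro ⟨_, a, ha, h⟩
    exact ⟨a, ha, fun x => congrArg (fun f : P →* Ω => f x) h⟩
  · rintro ⟨a, ha, h⟩
    exact ⟨hP, a, ha, by ext x; exact h x⟩

/-- `autSys` is contained in any system whose automizer of `T` contains `A`. -/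
theorem autSys_isSubsystemOf {S : Subgroup Ω} (F : FusionSystem S) (hTS : T ≤ S) (h : A ≤ F.autGroup T) :
    (autSys T A hA).IsSubsystemOf F := by
  rintro P φ ⟨hP, a, ha, rfl⟩
  exact F.restrict_mem ((F.mem_autGroup_iff hTS a).1 (h ha)) hP

/-- `T` is normal in `autSys T A`. -/
theorem autSys_isNormal_self [Finite T] : (autSys T A hA).IsNormal T := by
  rw [isNormal_self_iff']
  rintro P φ ⟨hP, a, ha, rfl⟩
  exact ⟨hP, a, by rw [autSys_autGroup_self]; exact ha, rfl⟩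

/-- A normal Sylow subgroup meets every subgroup in a Sylow subgroup. -/
theorem IsSylowIn.inf_of_normal {X : Type*} [Group X] {p : ℕ} [Fact p.Prime] {U A B : Subgroup X} [Finite A]
    (h : IsSylowIn p U A) (hUA : U ≤ A) (hn : ∀ u ∈ U, ∀ a ∈ A, a * u * a⁻¹ ∈ U) (hBA : B ≤ A) :
    IsSylowIn p (U ⊓ B) B := by
  have hfB : Finite B := Finite.of_injective (Subgroup.inclusion hBA) (Subgroup.inclusion_injective hBA)
  obtain ⟨V, -, hVB, hV⟩ := exists_isSylowIn p B (K := ⊥) bot_le IsPGroup.of_bot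
  have hVp := hV.isPGroup hVB
  obtain ⟨a, ha, hconj⟩ := h.exists_conj_le (hVB.trans hBA) hVp
  have hVU : V ≤ U := by
    intro v hv
    have h1 := hn _ (hconj v hv) a⁻¹ (A.inv_mem ha)
    have h2 : a⁻¹ * (a * v * a⁻¹) * a⁻¹⁻¹ = v := by group
    rwa [h2] at h1
  have hfUB : Finite ↥(U ⊓ B) :=
    Finite.of_injective (Subgroup.inclusion (inf_le_right : U ⊓ B ≤ B)) (Subgroup.inclusion_injective _)
  exact hV.of_card_le hVB inf_le_right ((h.isPGroup hUA).to_le inf_le_left)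
    (Subgroup.card_le_of_le (le_inf hVU hVB))

/-- The stabilizer of `P` in `A`. -/
def stabIn (A : Subgroup (MulAut T)) (P : Subgroup Ω) : Subgroup (MulAut T) where
  carrier := {a | a ∈ A ∧ ∀ x : T, (x : Ω) ∈ P ↔ ((a x : T) : Ω) ∈ P}
  one_mem' := ⟨A.one_mem, fun _ => Iff.rfl⟩
  mul_mem' := by
    rintro a b ⟨ha, ha'⟩ ⟨hb, hb'⟩
    exact ⟨A.mul_mem ha hb, fun x => (hb' x).trans (ha' (b x))⟩
  inv_mem' := by
    rintro a ⟨ha, ha'⟩
    refine ⟨A.inv_mem ha, fun x => ?_⟩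
    have := ha' (a⁻¹ x)
    rw [MulAut.apply_inv_self] at this
    exact this.symm

/-- Restriction of the stabilizer of `P` to `P`. -/
def stabRes (A : Subgroup (MulAut T)) {P : Subgroup Ω} (hP : P ≤ T) : stabIn A P →* MulAut P where
  toFun a :=
    { toFun := fun x => ⟨((a : MulAut T) ⟨x, hP x.2⟩ : T), (a.2.2 ⟨x, hP x.2⟩).1 x.2⟩
      invFun := fun x => ⟨((a : MulAut T)⁻¹ ⟨x, hP x.2⟩ : T), (((stabIn A P).inv_mem a.2).2 ⟨x, hP x.2⟩).1 x.2⟩
      left_inv := fun x => by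
        apply Subtype.ext
        show ((((a : MulAut T)⁻¹ ((a : MulAut T) ⟨x, hP x.2⟩)) : T) : Ω) = x
        rw [MulAut.inv_apply_self]
      right_inv := fun x => by
        apply Subtype.ext
        show ((((a : MulAut T) ((a : MulAut T)⁻¹ ⟨x, hP x.2⟩)) : T) : Ω) = x
        rw [MulAut.apply_inv_self]
      map_mul' := fun x y => by
        apply Subtype.ext
        show (((a : MulAut T) (⟨x, hP x.2⟩ * ⟨y, hP y.2⟩) : T) : Ω) = _
        rw [map_mul]
        rfl }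
  map_one' := rfl
  map_mul' _ _ := rfl

theorem stabRes_coe (A : Subgroup (MulAut T)) {P : Subgroup Ω} (hP : P ≤ T) (a : stabIn A P) (x : P) :
    ((stabRes A hP a x : P) : Ω) = (((a : MulAut T) ⟨x, hP x.2⟩ : T) : Ω) := rfl

theorem stabRes_range [Finite T] {P : Subgroup Ω} (hP : P ≤ T) :
    (stabRes A hP).range = (autSys T A hA).autGroup P := by
  ext α
  rw [mem_autSys_autGroup_iff hP]
  constructor
  · rintro ⟨a, rfl⟩
    exact ⟨a, a.2.1, fun x => rfl⟩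
  · rintro ⟨a, ha, h⟩
    have hmem : a ∈ stabIn A P := by
      refine ⟨ha, fun x => ⟨fun hx => ?_, fun hx => ?_⟩⟩
      · rw [← h ⟨x, hx⟩]
        exact (α _).2
      · have h1 := h (α.symm ⟨_, hx⟩)
        rw [MulEquiv.apply_symm_apply] at h1
        have h2 : a x = a ⟨(α.symm ⟨_, hx⟩ : P), hP (α.symm ⟨_, hx⟩).2⟩ := Subtype.ext h1
        have h3 := a.injective h2
        rw [h3]
        exact (α.symm ⟨_, hx⟩).2
    exact ⟨⟨a, hmem⟩, by ext x; exact (h x).symm⟩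

theorem stabRes_map_inn {P : Subgroup Ω} (hP : P ≤ T) (hA : Inn T ≤ A) :
    ((Inn T ⊓ stabIn A P).subgroupOf (stabIn A P)).map (stabRes A hP) = autInducedBy T P := by
  ext α
  rw [mem_autInducedBy_iff]
  constructor
  · rintro ⟨a, ha, rfl⟩
    obtain ⟨⟨g, hg⟩, -⟩ := Subgroup.mem_subgroupOf.1 ha
    refine ⟨g, g.2, fun x => ?_⟩
    rw [stabRes_coe, ← hg]
    rfl
  · rintro ⟨g, hg, h⟩
    have hN := mem_normalizer_of_induces α h
    have hmem : MulAut.conj (⟨g, hg⟩ : T) ∈ stabIn A P := by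
      refine ⟨hA ⟨_, rfl⟩, fun x => ?_⟩
      exact Subgroup.mem_normalizer_iff.1 hN x
    exact ⟨⟨_, hmem⟩, Subgroup.mem_subgroupOf.2 ⟨⟨_, rfl⟩, hmem⟩, by ext x; exact (h x).symm⟩

theorem autSys_isFullyAutomized [Finite T] {p : ℕ} [Fact p.Prime] (hsyl : IsSylowIn p (Inn T) A)
    {P : Subgroup Ω} (hP : P ≤ T) : (autSys T A hA).IsFullyAutomized p P := by
  refine ⟨hP, ?_⟩
  have hle : stabIn A P ≤ A := fun a ha => ha.1
  have hn : ∀ u ∈ Inn T, ∀ a ∈ A, a * u * a⁻¹ ∈ Inn T := by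
    rintro _ ⟨g, rfl⟩ a -
    refine ⟨a g, ?_⟩
    ext x
    simp
  have h1 := IsSylowIn.inf_of_normal hsyl hA hn hle
  have h2 := h1.map_range (stabRes A hP)
  rw [stabRes_range (hA := hA) hP, stabRes_map_inn hP hA] at h2
  exact h2

theorem autSys_isReceptive {P : Subgroup Ω} (hP : P ≤ T) : (autSys T A hA).IsReceptive P := by
  refine ⟨hP, ?_⟩
  rintro R φ ⟨hR, a, ha, rfl⟩ -
  have hle : extender T R (resAut hR a) ≤ T := (extender_le_normalizerIn _).trans normalizerIn_le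
  exact ⟨resAut hle a, ⟨hle, a, ha, rfl⟩, fun x _ _ => rfl⟩

/-- If `Inn(T)` is a Sylow `p`-subgroup of `A` then `autSys T A` is saturated. -/
theorem autSys_isSaturated [Finite T] {p : ℕ} [Fact p.Prime] (hsyl : IsSylowIn p (Inn T) A) :
    (autSys T A hA).IsSaturated p := fun P hP =>
  ⟨P, FusionSystem.IsConj.refl _ hP, autSys_isFullyAutomized hsyl hP, autSys_isReceptive hP⟩

end Cfsg.Agent.Lib.Helper27.Fus
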