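import Cfsg.Agent.Fus.Central
import Cfsg.Agent.Fus.Focal
import Cfsg.Agent.Fus.Quot2
import Cfsg.Agent.Lib.Helper27.FusCenter
import Cfsg.Agent.Lib.Helper27.CoprimeAut

/-!
Criteria for central subgroups of a saturated fusion system, and the second centre.
-/

set_option autoImplicit false

namespace Cfsg.Agent.Lib.Helper27.Fus

open Cfsg Cfsg.FusionSystem Cfsg.Agent.Fus

variable {Ω : Type*} [Group Ω] {S : Subgroup Ω}

/-- A subgroup of `Z(S)` fixed pointwise by the automizers of `S` and of the essential subgroups is central. -/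
theorem isCentral_of_aut_fix (F : FusionSystem S) [Finite S] {p : ℕ} [Fact p.Prime]
    (hS : IsPGroup p S) (hF : F.IsSaturated p) (Q : Subgroup Ω) (hQS : Q ≤ S)
    (hZ : ∀ g ∈ S, ∀ x ∈ Q, x * g = g * x)
    (hfix : ∀ P : Subgroup Ω, (P = S ∨ F.IsEssential p P) → ∀ α ∈ F.autGroup P, ∀ x : P, (x : Ω) ∈ Q →
      α x = x) : F.IsCentral Q := by
  have hC : centralizerIn S Q = S :=
    le_antisymm centralizerIn_le (fun g hg => mem_centralizerIn.2 ⟨hg, hZ g hg⟩)
  have hE : ∀ P, (castSys hC (F.centralizerSystem Q hQS)).Hom P = F.centralizerHom Q P := by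
    intro P
    rw [castSys_hom]
    exact F.isCentralizerSystem_centralizerSystem Q hQS P
  have hle : F ≤ castSys hC (F.centralizerSystem Q hQS) := by
    apply F.alperin _ hS hF
    intro P hP α hα
    have hc : F.IsCentric P := by
      rcases hP with rfl | hP
      · exact F.isCentric_self
      · exact hP.1
    have hPle : P ≤ S := hc.1
    have hQP : Q ≤ P := by
      intro x hx
      apply hc.2 P (FusionSystem.IsConj.refl F hPle)
      exact mem_centralizerIn.2 ⟨hQS hx, fun y hy => (hZ y (hPle hy) x hx).symm⟩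
    apply Subgroup.subset_closure
    show _ ∈ (castSys hC (F.centralizerSystem Q hQS)).Hom P
    rw [hE]
    have hαm := (F.mem_autGroup_iff hPle α).1 hα
    have heq : P = P ⊔ Q := (sup_eq_left.2 hQP).symm
    refine ⟨hαm, by rw [hC]; exact hPle, fun x => by rw [hC]; exact hPle (α x).2,
      (P.subtype.comp α.toMonoidHom).comp (Subgroup.inclusion heq.ge),
      F.hom_congr heq hαm _ (fun x hx hx' => rfl), fun x => rfl, ?_⟩
    intro x
    exact congrArg Subtype.val (hfix P hP α hα ⟨x, hQP x.2⟩ x.2)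
  refine ⟨hQS, fun P φ hφ => ?_⟩
  have h1 := hle P hφ
  rw [hE] at h1
  exact h1.2.2.2

/-- The centre of a saturated fusion system is strongly closed. -/
theorem center_stronglyClosed (F : FusionSystem S) [Finite S] {p : ℕ} [Fact p.Prime]
    (hS : IsPGroup p S) (hF : F.IsSaturated p) : F.StronglyClosed F.center := by
  refine ⟨F.isCentral_center.1, fun R hR φ hφ x => ?_⟩
  obtain ⟨-, h⟩ := mem_center_imp F hS hF (hR x.2)
  have hle : Subgroup.zpowers (x : Ω) ≤ R := by rw [Subgroup.zpowers_le]; exact x.2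
  have h1 : φ x = x := h _ ⟨_, F.restrict_mem hφ hle, rfl⟩
  rw [h1]
  exact hR x.2

/-- Maps of a saturated system fix the elements of the centre. -/
theorem map_center_eq (F : FusionSystem S) [Finite S] {p : ℕ} [Fact p.Prime]
    (hS : IsPGroup p S) (hF : F.IsSaturated p) {R : Subgroup Ω} {φ : R →* Ω} (hφ : φ ∈ F.Hom R) (x : R)
    (hx : (x : Ω) ∈ F.center) : φ x = x := by
  obtain ⟨-, h⟩ := mem_center_imp F hS hF hx
  have hle : Subgroup.zpowers (x : Ω) ≤ R := by rw [Subgroup.zpowers_le]; exact x.2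
  exact h _ ⟨_, F.restrict_mem hφ hle, rfl⟩

end Cfsg.Agent.Lib.Helper27.Fus
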