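import Mathlib
import Cfsg.Agent.Lib.Helper27.Basic

set_option autoImplicit false

namespace Cfsg.Agent.Lib.Helper27

variable {G : Type*} [Group G]

/-- An involution normalizing a finite subgroup `K` and centralizing no nontrivial element of it inverts `K`. -/
theorem inverts_of_fpf (K : Subgroup G) [Finite K] (t : G) (ht : t * t = 1)
    (hN : t ∈ Subgroup.normalizer (K : Set G)) (hfix : ∀ k ∈ K, t * k = k * t → k = 1) :
    ∀ k ∈ K, t * k * t⁻¹ = k⁻¹ := by
  have htinv : t⁻¹ = t := inv_eq_of_mul_eq_one_left ht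
  let f : K → K := fun k => ⟨(k : G)⁻¹ * (t * k * t⁻¹),
    K.mul_mem (K.inv_mem k.2) ((Subgroup.mem_normalizer_iff.mp hN k).mp k.2)⟩
  have hinj : Function.Injective f := by
    intro k l hkl
    have h1 : (k : G)⁻¹ * (t * k * t⁻¹) = (l : G)⁻¹ * (t * l * t⁻¹) := congrArg Subtype.val hkl
    have h2 : (l : G) * (k : G)⁻¹ = 1 := by
      apply hfix _ (K.mul_mem l.2 (K.inv_mem k.2))
      have h3 : (l : G) * (k : G)⁻¹ = t * l * t⁻¹ * (t * k * t⁻¹)⁻¹ := by
        calc (l : G) * (k : G)⁻¹ = l * ((k : G)⁻¹ * (t * k * t⁻¹)) * (t * k * t⁻¹)⁻¹ := by group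
          _ = l * ((l : G)⁻¹ * (t * l * t⁻¹)) * (t * k * t⁻¹)⁻¹ := by rw [h1]
          _ = t * l * t⁻¹ * (t * k * t⁻¹)⁻¹ := by group
      calc t * ((l : G) * (k : G)⁻¹) = (t * l * t⁻¹ * (t * k * t⁻¹)⁻¹) * t := by group
        _ = (l : G) * (k : G)⁻¹ * t := by rw [← h3]
    apply Subtype.ext
    exact (mul_inv_eq_one.mp h2).symm
  have hsurj : Function.Surjective f := Finite.injective_iff_surjective.mp hinj
  intro x hx
  obtain ⟨k, hk⟩ := hsurj ⟨x, hx⟩
  have hx' : x = (k : G)⁻¹ * (t * k * t⁻¹) := (congrArg Subtype.val hk).symm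
  rw [hx', htinv]
  calc t * ((k : G)⁻¹ * (t * k * t)) * t = t * (k : G)⁻¹ * (t * k * (t * t)) := by group
    _ = t * (k : G)⁻¹ * t * k := by rw [ht]; group
    _ = ((k : G)⁻¹ * (t * k * t))⁻¹ := by
      simp only [mul_inv_rev, inv_inv, htinv]
      group

end Cfsg.Agent.Lib.Helper27
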