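import Cfsg.Prelude
import Cfsg.Agent.H1.Coprime
import Cfsg.Agent.H1.Small2

/-!
Basic facts on extraspecial `2`-subgroups and involutions acting without fixed points.
-/

set_option autoImplicit false

open Cfsg Subgroup
open scoped commutatorElement

namespace Cfsg.Agent.Lib.Helper27.XS

variable {G : Type*} [Group G]

/-- the derived group of an extraspecial subgroup, seen in `G`. -/
theorem comm_eq {Q : Subgroup G} (hQ : Cfsg.IsExtraspecial 2 ↥Q) :
    ⁅Q, Q⁆ = (Subgroup.center ↥Q).map Q.subtype := by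
  rw [← hQ.1.2.2, _root_.commutator_def, Subgroup.map_commutator, ← MonoidHom.range_eq_map,
    Subgroup.range_subtype]

theorem sq_mem [Finite G] {Q : Subgroup G} (hQ : Cfsg.IsExtraspecial 2 ↥Q) {x : G} (hx : x ∈ Q) :
    x ^ 2 ∈ (Subgroup.center ↥Q).map Q.subtype := by
  have : Fact (Nat.Prime 2) := ⟨Nat.prime_two⟩
  have h := (Cfsg.H1.frattini_pgroup_ge 2 hQ.1.1).2 ⟨x, hx⟩
  rw [hQ.1.2.1] at h
  exact ⟨_, h, rfl⟩

theorem card_Z {Q : Subgroup G} (hQ : Cfsg.IsExtraspecial 2 ↥Q) :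
    Nat.card ↥((Subgroup.center ↥Q).map Q.subtype) = 2 := by
  rw [Subgroup.card_map_of_injective Q.subtype_injective]
  exact hQ.2

theorem mem_Z_iff {Q : Subgroup G} {x : G} :
    x ∈ (Subgroup.center ↥Q).map Q.subtype ↔ x ∈ Q ∧ ∀ y ∈ Q, y * x = x * y := by
  constructor
  · rintro ⟨⟨x, hx⟩, h, rfl⟩
    refine ⟨hx, fun y hy => ?_⟩
    have := Subgroup.mem_center_iff.1 h ⟨y, hy⟩
    exact congrArg Subtype.val this
  · rintro ⟨hx, h⟩
    refine ⟨⟨x, hx⟩, ?_, rfl⟩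
    show (⟨x, hx⟩ : ↥Q) ∈ Subgroup.center ↥Q
    rw [Subgroup.mem_center_iff]
    rintro ⟨y, hy⟩
    exact Subtype.ext (h y hy)

/-- The centre of an extraspecial `2`-subgroup consists of `1` and any of its nontrivial elements. -/
theorem eq_of_mem_Z {Q : Subgroup G} (hQ : Cfsg.IsExtraspecial 2 ↥Q) {z x : G}
    (hz : z ∈ (Subgroup.center ↥Q).map Q.subtype) (hz1 : z ≠ 1)
    (hx : x ∈ (Subgroup.center ↥Q).map Q.subtype) : x = 1 ∨ x = z := by
  obtain ⟨w, -, hw⟩ := (Nat.card_eq_two_iff' (1 : ↥((Subgroup.center ↥Q).map Q.subtype))).1 (card_Z hQ)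
  by_cases hx1 : x = 1
  · exact Or.inl hx1
  · right
    have e1 := hw ⟨x, hx⟩ (fun h => hx1 (congrArg Subtype.val h))
    have e2 := hw ⟨z, hz⟩ (fun h => hz1 (congrArg Subtype.val h))
    exact congrArg Subtype.val (e1.trans e2.symm)

/-- A noncentral element of an extraspecial `2`-subgroup is conjugate to its product with the central involution. -/
theorem exists_conj_mul {Q : Subgroup G} (hQ : Cfsg.IsExtraspecial 2 ↥Q) {z x : G}
    (hz : z ∈ (Subgroup.center ↥Q).map Q.subtype) (hz1 : z ≠ 1) (hx : x ∈ Q)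
    (hxZ : x ∉ (Subgroup.center ↥Q).map Q.subtype) : ∃ q ∈ Q, q * x * q⁻¹ = z * x := by
  have h1 : ∃ q ∈ Q, q * x ≠ x * q := by
    by_contra h
    push Not at h
    exact hxZ (mem_Z_iff.2 ⟨hx, h⟩)
  obtain ⟨q, hq, hne⟩ := h1
  refine ⟨q, hq, ?_⟩
  have h2 : ⁅q, x⁆ ∈ (Subgroup.center ↥Q).map Q.subtype := by
    rw [← comm_eq hQ]
    exact Subgroup.commutator_mem_commutator hq hx
  rcases eq_of_mem_Z hQ hz hz1 h2 with h | h
  · rw [commutatorElement_eq_one_iff_mul_comm] at h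
    exact absurd h hne
  · rw [← h, commutatorElement_def]; group

/-- An involution acting on a finite normal subgroup without nontrivial fixed points inverts it. -/
theorem inverts_of_fpf [Finite G] (N : Subgroup G) [N.Normal] {s : G} (hs : s * s = 1)
    (hfix : ∀ n ∈ N, n * s = s * n → n = 1) : ∀ n ∈ N, s * n * s⁻¹ = n⁻¹ := by
  have hsi : s⁻¹ = s := inv_eq_of_mul_eq_one_left hs
  let φ : ↥N → ↥N := fun n => ⟨(n : G)⁻¹ * (s * n * s⁻¹),
    N.mul_mem (N.inv_mem n.2) (‹N.Normal›.conj_mem _ n.2 s)⟩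
  have hinj : Function.Injective φ := by
    intro n m h
    have h1 : (n : G)⁻¹ * (s * n * s⁻¹) = (m : G)⁻¹ * (s * m * s⁻¹) := congrArg Subtype.val h
    have h2 : ((m : G) * (n : G)⁻¹) * s = s * ((m : G) * (n : G)⁻¹) := by
      have e : (m : G) * (n : G)⁻¹ = s * m * s⁻¹ * (s * n * s⁻¹)⁻¹ := by
        have e1 : (n : G)⁻¹ = (m : G)⁻¹ * (s * m * s⁻¹) * (s * n * s⁻¹)⁻¹ := by
          rw [← h1]; group
        calc (m : G) * (n : G)⁻¹ = m * ((m : G)⁻¹ * (s * m * s⁻¹) * (s * n * s⁻¹)⁻¹) := by rw [← e1]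
          _ = _ := by group
      have e2 : s * m * s⁻¹ * (s * n * s⁻¹)⁻¹ = s * ((m : G) * (n : G)⁻¹) * s⁻¹ := by group
      rw [e2] at e
      calc ((m : G) * (n : G)⁻¹) * s = (s * ((m : G) * (n : G)⁻¹) * s⁻¹) * s := by rw [← e]
        _ = _ := by group
    have h3 := hfix _ (N.mul_mem m.2 (N.inv_mem n.2)) h2
    exact Subtype.ext (mul_inv_eq_one.1 h3).symm
  have hsurj : Function.Surjective φ := Finite.surjective_of_injective hinj
  intro n hn
  obtain ⟨m, hm⟩ := hsurj ⟨n, hn⟩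
  have h1 : (m : G)⁻¹ * (s * m * s⁻¹) = n := congrArg Subtype.val hm
  rw [← h1, hsi]
  have : s * ((m : G)⁻¹ * (s * m * s)) * s = s * (m : G)⁻¹ * s * m * (s * s) := by group
  rw [this, hs]
  simp only [mul_inv_rev, hsi, mul_one, inv_inv, mul_assoc]

end Cfsg.Agent.Lib.Helper27.XS
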