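import Cfsg.Agent.Lib.Helper27.XS
import Cfsg.Agent.H17.SylowLemmas

/-!
Extraspecial `2`-subgroups `Q` with `C(Q) = Z(Q) = ⟨z⟩`, `Q ⊴ C(z)`: if a conjugate `t` of `z` lies in
`Q - ⟨z⟩` then `N(⟨z,t⟩)` induces `S₃` and `z ∈ Q^g`.
-/

set_option autoImplicit false

open Cfsg Subgroup
open scoped commutatorElement

namespace Cfsg.Agent.Lib.Helper27.XS

variable {G : Type*} [Group G]

/-- The elementwise form of the hypotheses. -/
structure Setup (Q : Subgroup G) (z : G) : Prop where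
  ex : Cfsg.IsExtraspecial 2 ↥Q
  zZ : z ∈ (Subgroup.center ↥Q).map Q.subtype
  z1 : z ≠ 1
  cent : ∀ c, (∀ q ∈ Q, q * c = c * q) → c = 1 ∨ c = z
  norm : ∀ c, c * z = z * c → c ∈ Subgroup.normalizer (Q : Set G)

theorem Setup.of_hyp {Q : Subgroup G} (hL1 : Cfsg.IsExtraspecial 2 ↥Q)
    (hL2 : Subgroup.centralizer (Q : Set G) = ((Subgroup.center ↥Q).map Q.subtype))
    (hL3 : Subgroup.centralizer (((Subgroup.center ↥Q).map Q.subtype) : Set G) ≤
      Subgroup.normalizer (Q : Set G)) {z : G} (hz : z ∈ (Subgroup.center ↥Q).map Q.subtype)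
    (hz1 : z ≠ 1) : Setup Q z where
  ex := hL1
  zZ := hz
  z1 := hz1
  cent := by
    intro c hc
    have : c ∈ Subgroup.centralizer (Q : Set G) := Subgroup.mem_centralizer_iff.2 hc
    rw [hL2] at this
    exact eq_of_mem_Z hL1 hz hz1 this
  norm := by
    intro c hc
    apply hL3
    rw [Subgroup.mem_centralizer_iff]
    intro y hy
    rcases eq_of_mem_Z hL1 hz hz1 hy with rfl | rfl
    · simp
    · exact hc.symm

namespace Setup

variable {Q : Subgroup G} {z : G}

theorem zQ (S : Setup Q z) : z ∈ Q := (mem_Z_iff.1 S.zZ).1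

theorem zc (S : Setup Q z) {q : G} (hq : q ∈ Q) : q * z = z * q := (mem_Z_iff.1 S.zZ).2 q hq

theorem zz (S : Setup Q z) : z * z = 1 := by
  have h := card_Z S.ex
  have h1 : (⟨z, S.zZ⟩ : ↥((Subgroup.center ↥Q).map Q.subtype)) ^ 2 = 1 := by
    rw [← h]; exact pow_card_eq_one'
  have h2 : z ^ 2 = 1 := congrArg Subtype.val h1
  rwa [pow_two] at h2

theorem zinv (S : Setup Q z) : z⁻¹ = z := inv_eq_of_mul_eq_one_left S.zz

theorem comm (S : Setup Q z) {a b : G} (ha : a ∈ Q) (hb : b ∈ Q) :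
    a * b = b * a ∨ a * b = z * (b * a) := by
  have h2 : ⁅a, b⁆ ∈ (Subgroup.center ↥Q).map Q.subtype := by
    rw [← comm_eq S.ex]
    exact Subgroup.commutator_mem_commutator ha hb
  rcases eq_of_mem_Z S.ex S.zZ S.z1 h2 with h | h
  · left; exact commutatorElement_eq_one_iff_mul_comm.1 h
  · right
    rw [← h, commutatorElement_def]; group

theorem sq [Finite G] (S : Setup Q z) {a : G} (ha : a ∈ Q) : a * a = 1 ∨ a * a = z := by
  have := sq_mem S.ex ha
  rw [pow_two] at this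
  exact eq_of_mem_Z S.ex S.zZ S.z1 this

theorem mem_Z (S : Setup Q z) {x : G} : x ∈ (Subgroup.center ↥Q).map Q.subtype ↔ x = 1 ∨ x = z := by
  constructor
  · exact eq_of_mem_Z S.ex S.zZ S.z1
  · rintro (rfl | rfl)
    · exact Subgroup.one_mem _
    · exact S.zZ

/-- the centralizer in `G` of `C_Q(t)`. -/
theorem cent_R [Finite G] (S : Setup Q z) {t c : G} (ht : t ∈ Q) (ht1 : t ≠ 1) (htz : t ≠ z)
    (htt : t * t = 1) (hc : ∀ r ∈ Q, r * t = t * r → r * c = c * r) :
    c = 1 ∨ c = z ∨ c = t ∨ c = t * z := by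
  have htZ : t ∉ (Subgroup.center ↥Q).map Q.subtype := fun h => (S.mem_Z.1 h).elim ht1 htz
  obtain ⟨q₀, hq₀, hq₀t⟩ := exists_conj_mul S.ex S.zZ S.z1 ht htZ
  have hzz := S.zz
  have r1 : q₀ * t = z * t * q₀ := by rw [← hq₀t]; group
  have r2 : q₀⁻¹ * (z * t) = t * q₀⁻¹ := by rw [← hq₀t]; group
  have hzt : t * z = z * t := S.zc ht
  have hzq : q₀ * z = z * q₀ := S.zc hq₀
  have hzc : z * c = c * z := hc z S.zQ hzt.symm
  have hcN := S.norm c hzc.symm
  have haQ : c * q₀ * c⁻¹ ∈ Q := (Subgroup.mem_normalizer_iff.1 hcN q₀).1 hq₀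
  -- dichotomy
  have f3 : ∀ q ∈ Q, q * t = t * q ∨ (q₀⁻¹ * q) * t = t * (q₀⁻¹ * q) := by
    intro q hq
    rcases S.comm hq ht with h | h
    · exact Or.inl h
    · right
      calc q₀⁻¹ * q * t = q₀⁻¹ * (q * t) := by group
        _ = q₀⁻¹ * (z * (t * q)) := by rw [h]
        _ = (q₀⁻¹ * (z * t)) * q := by group
        _ = t * q₀⁻¹ * q := by rw [r2]
        _ = t * (q₀⁻¹ * q) := by group
  have f4 : ∀ y : G, q₀ * y = y * q₀ → (∀ r ∈ Q, r * t = t * r → r * y = y * r) →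
      y = 1 ∨ y = z := by
    intro y h1 h2
    apply S.cent
    intro q hq
    rcases f3 q hq with h | h
    · exact h2 q hq h
    · have h3 := h2 _ (Q.mul_mem (Q.inv_mem hq₀) hq) h
      calc q * y = q₀ * ((q₀⁻¹ * q) * y) := by group
        _ = q₀ * (y * (q₀⁻¹ * q)) := by rw [h3]
        _ = (q₀ * y) * (q₀⁻¹ * q) := by group
        _ = (y * q₀) * (q₀⁻¹ * q) := by rw [h1]
        _ = y * q := by group
  obtain ⟨e, he⟩ : ∃ e, e = q₀⁻¹ * (c * q₀ * c⁻¹) := ⟨_, rfl⟩
  have heQ : e ∈ Q := he ▸ Q.mul_mem (Q.inv_mem hq₀) haQ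
  have ha : c * q₀ * c⁻¹ = q₀ * e := by rw [he]; group
  have f5 : ∀ r ∈ Q, r * t = t * r → r * e = e * r := by
    intro r hr hrt
    have hr' : q₀ * r * q₀⁻¹ ∈ Q := Q.mul_mem (Q.mul_mem hq₀ hr) (Q.inv_mem hq₀)
    have hr't : (q₀ * r * q₀⁻¹) * t = t * (q₀ * r * q₀⁻¹) := by
      have hzr := S.zc hr'
      have e1 : (q₀ * r * q₀⁻¹) * (z * t) = (z * t) * (q₀ * r * q₀⁻¹) := by
        rw [← hq₀t]
        calc q₀ * r * q₀⁻¹ * (q₀ * t * q₀⁻¹) = q₀ * (r * t) * q₀⁻¹ := by group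
          _ = q₀ * (t * r) * q₀⁻¹ := by rw [hrt]
          _ = _ := by group
      have e2 : z * ((q₀ * r * q₀⁻¹) * t) = z * (t * (q₀ * r * q₀⁻¹)) := by
        calc z * ((q₀ * r * q₀⁻¹) * t) = (z * (q₀ * r * q₀⁻¹)) * t := by group
          _ = ((q₀ * r * q₀⁻¹) * z) * t := by rw [hzr]
          _ = (q₀ * r * q₀⁻¹) * (z * t) := by group
          _ = (z * t) * (q₀ * r * q₀⁻¹) := e1
          _ = _ := by group
      exact mul_left_cancel e2
    have h1 := hc _ hr' hr't
    have h2 := hc r hr hrt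
    have h3 : r * c⁻¹ = c⁻¹ * r := by
      calc r * c⁻¹ = c⁻¹ * (c * r) * c⁻¹ := by group
        _ = c⁻¹ * (r * c) * c⁻¹ := by rw [h2]
        _ = _ := by group
    rw [he]
    calc r * (q₀⁻¹ * (c * q₀ * c⁻¹)) = q₀⁻¹ * ((q₀ * r * q₀⁻¹) * c) * q₀ * c⁻¹ := by group
      _ = q₀⁻¹ * (c * (q₀ * r * q₀⁻¹)) * q₀ * c⁻¹ := by rw [h1]
      _ = q₀⁻¹ * c * q₀ * (r * c⁻¹) := by group
      _ = q₀⁻¹ * c * q₀ * (c⁻¹ * r) := by rw [h3]
      _ = _ := by group
  -- squares
  have f7 : e * q₀ * e = q₀ := by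
    have hsq : c * (q₀ * q₀) = (q₀ * q₀) * c := by
      rcases S.sq hq₀ with h | h
      · rw [h]; simp
      · rw [h]; exact hzc.symm
    have h1 : (q₀ * e) * (q₀ * e) = q₀ * q₀ := by
      rw [← ha]
      calc c * q₀ * c⁻¹ * (c * q₀ * c⁻¹) = (c * (q₀ * q₀)) * c⁻¹ := by group
        _ = (q₀ * q₀) * c * c⁻¹ := by rw [hsq]
        _ = _ := by group
    have h2 : q₀ * (e * q₀ * e) = q₀ * q₀ := by rw [← h1]; group
    exact mul_left_cancel h2
  have r3 : t * q₀ * t = z * q₀ := by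
    calc t * q₀ * t = t * (q₀ * t) := by group
      _ = t * (z * t * q₀) := by rw [r1]
      _ = (t * z) * t * q₀ := by group
      _ = (z * t) * t * q₀ := by rw [hzt]
      _ = z * (t * t) * q₀ := by group
      _ = z * q₀ := by rw [htt, mul_one]
  have hne : z * q₀ ≠ q₀ := fun h => S.z1 (mul_eq_right.1 h)
  rcases S.comm hq₀ heQ with h | h
  · rcases f4 e h f5 with h1 | h1
    · -- e = 1
      rw [h1, mul_one] at ha
      have h2 : q₀ * c = c * q₀ := by
        calc q₀ * c = (c * q₀ * c⁻¹) * c := by rw [ha]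
          _ = c * q₀ := by group
      rcases f4 c h2 hc with h3 | h3
      · exact Or.inl h3
      · exact Or.inr (Or.inl h3)
    · -- e = z
      rw [h1] at ha
      have h2 : q₀ * (t * c) = (t * c) * q₀ := by
        have h3 : c * q₀ = q₀ * z * c := by rw [← ha]; group
        have h4 : t * q₀ = z * q₀ * t := by
          calc t * q₀ = (t * q₀ * t) * t := by
                rw [mul_assoc (t * q₀), htt, mul_one]
            _ = z * q₀ * t := by rw [r3]
        calc q₀ * (t * c) = (z * z) * q₀ * t * c := by rw [hzz]; group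
          _ = z * (z * q₀ * t) * c := by group
          _ = z * (t * q₀) * c := by rw [h4]
          _ = (z * t) * q₀ * c := by group
          _ = (t * z) * q₀ * c := by rw [hzt]
          _ = t * (z * q₀) * c := by group
          _ = t * (q₀ * z) * c := by rw [hzq]
          _ = t * (q₀ * z * c) := by group
          _ = t * (c * q₀) := by rw [h3]
          _ = _ := by group
      have h5 : ∀ r ∈ Q, r * t = t * r → r * (t * c) = (t * c) * r := by
        intro r hr hrt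
        calc r * (t * c) = (r * t) * c := by group
          _ = (t * r) * c := by rw [hrt]
          _ = t * (r * c) := by group
          _ = t * (c * r) := by rw [hc r hr hrt]
          _ = _ := by group
      rcases f4 _ h2 h5 with h3 | h3
      · right; right; left
        calc c = (t * t) * c := by rw [htt, one_mul]
          _ = t * (t * c) := by group
          _ = t := by rw [h3, mul_one]
      · right; right; right
        calc c = (t * t) * c := by rw [htt, one_mul]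
          _ = t * (t * c) := by group
          _ = t * z := by rw [h3]
  · exfalso
    have hzE := S.zc heQ
    have h2 : q₀ * (e * t) = (e * t) * q₀ := by
      calc q₀ * (e * t) = (q₀ * e) * t := by group
        _ = (z * (e * q₀)) * t := by rw [h]
        _ = z * e * (q₀ * t) := by group
        _ = z * e * (z * t * q₀) := by rw [r1]
        _ = z * (e * z) * t * q₀ := by group
        _ = z * (z * e) * t * q₀ := by rw [hzE]
        _ = (z * z) * e * t * q₀ := by group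
        _ = _ := by rw [hzz]; group
    have h5 : ∀ r ∈ Q, r * t = t * r → r * (e * t) = (e * t) * r := by
      intro r hr hrt
      calc r * (e * t) = (r * e) * t := by group
        _ = (e * r) * t := by rw [f5 r hr hrt]
        _ = e * (r * t) := by group
        _ = e * (t * r) := by rw [hrt]
        _ = _ := by group
    rcases f4 _ h2 h5 with h3 | h3
    · have h6 : e = t := by
        calc e = e * (t * t) := by rw [htt, mul_one]
          _ = (e * t) * t := by group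
          _ = t := by rw [h3, one_mul]
      rw [h6, r3] at f7
      exact hne f7
    · have h6 : e = z * t := by
        calc e = e * (t * t) := by rw [htt, mul_one]
          _ = (e * t) * t := by group
          _ = z * t := by rw [h3]
      rw [h6] at f7
      have h7 : z * t * q₀ * (z * t) = z * q₀ := by
        calc z * t * q₀ * (z * t) = z * t * (q₀ * z) * t := by group
          _ = z * t * (z * q₀) * t := by rw [hzq]
          _ = z * (t * z) * q₀ * t := by group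
          _ = z * (z * t) * q₀ * t := by rw [hzt]
          _ = (z * z) * (t * q₀ * t) := by group
          _ = z * q₀ := by rw [hzz, one_mul, r3]
      rw [h7] at f7
      exact hne f7

theorem conj_ne_one {g z : G} (hz : z ≠ 1) : g * z * g⁻¹ ≠ 1 := by
  intro h
  apply hz
  have : z = g⁻¹ * (g * z * g⁻¹) * g := by group
  rw [this, h]; group

/-- some element of `C(t)` interchanges `z` and `tz`. -/
theorem exists_swap [Finite G] (S : Setup Q z) {g t : G} (htg : t = g * z * g⁻¹) (ht : t ∈ Q)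
    (htz : t ≠ z) : ∃ x, x * t = t * x ∧ x * z * x⁻¹ = t * z := by
  have : Fact (Nat.Prime 2) := ⟨Nat.prime_two⟩
  have ht1 : t ≠ 1 := htg ▸ conj_ne_one S.z1
  have htt : t * t = 1 := by
    rw [htg]
    calc g * z * g⁻¹ * (g * z * g⁻¹) = g * (z * z) * g⁻¹ := by group
      _ = 1 := by rw [S.zz]; group
  obtain ⟨A, hA⟩ : ∃ A : Subgroup G, A = Subgroup.centralizer {z} ⊓ Subgroup.centralizer {t} :=
    ⟨_, rfl⟩
  obtain ⟨R, hR⟩ : ∃ R : Subgroup G, R = Q ⊓ Subgroup.centralizer {t} := ⟨_, rfl⟩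
  have memA : ∀ x, x ∈ A ↔ x * z = z * x ∧ x * t = t * x := by
    intro x
    rw [hA, Subgroup.mem_inf, Subgroup.mem_centralizer_singleton_iff,
      Subgroup.mem_centralizer_singleton_iff]
  have memR : ∀ x, x ∈ R ↔ x ∈ Q ∧ x * t = t * x := by
    intro x
    rw [hR, Subgroup.mem_inf, Subgroup.mem_centralizer_singleton_iff]
  have hRA : R ≤ A := fun x hx => (memA x).2 ⟨S.zc ((memR x).1 hx).1, ((memR x).1 hx).2⟩
  have hRp : IsPGroup 2 ↥R := S.ex.1.1.to_le (hR ▸ inf_le_left)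
  obtain ⟨T₀, ⟨hT₀p, hT₀A, hRT₀⟩, hmax⟩ := Set.Finite.exists_maximal
    (s := {T : Subgroup G | IsPGroup 2 ↥T ∧ T ≤ A ∧ R ≤ T}) (Set.toFinite _) ⟨R, hRp, hRA, le_rfl⟩
  obtain ⟨Qt, hQt⟩ : ∃ Qt : Subgroup G, Qt = Q.map (MulAut.conj g).toMonoidHom := ⟨_, rfl⟩
  have memQt : ∀ x, x ∈ Qt ↔ g⁻¹ * x * g ∈ Q := by
    intro x; rw [hQt]; exact Cfsg.Agent.H17.mem_map_conj_iff
  have hQtp : IsPGroup 2 ↥Qt := hQt ▸ S.ex.1.1.map _
  have hQtN : ∀ c, c * t = t * c → c ∈ Subgroup.normalizer (Qt : Set G) := by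
    intro c hc
    have h1 : (g⁻¹ * c * g) * z = z * (g⁻¹ * c * g) := by
      calc (g⁻¹ * c * g) * z = g⁻¹ * (c * (g * z * g⁻¹)) * g := by group
        _ = g⁻¹ * ((g * z * g⁻¹) * c) * g := by rw [← htg, hc]
        _ = _ := by group
    have h2 := S.norm _ h1
    rw [Subgroup.mem_normalizer_iff]
    intro y
    rw [memQt, memQt, Subgroup.mem_normalizer_iff.1 h2 (g⁻¹ * y * g)]
    have : g⁻¹ * c * g * (g⁻¹ * y * g) * (g⁻¹ * c * g)⁻¹ = g⁻¹ * (c * y * c⁻¹) * g := by group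
    rw [this]
  have hT₁p : IsPGroup 2 ↥(T₀ ⊔ Qt) :=
    hT₀p.to_sup_of_normal_right' hQtp (fun c hc => hQtN c ((memA c).1 (hT₀A hc)).2)
  have hQtt : ∀ y ∈ Qt, y * t = t * y := by
    intro y hy
    have h1 := S.zc ((memQt y).1 hy)
    rw [htg]
    calc y * (g * z * g⁻¹) = g * ((g⁻¹ * y * g) * z) * g⁻¹ := by group
      _ = g * (z * (g⁻¹ * y * g)) * g⁻¹ := by rw [h1]
      _ = _ := by group
  have hlt : T₀ < T₀ ⊔ Qt := by
    refine lt_of_le_of_ne le_sup_left ?_
    intro h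
    have hQtT : Qt ≤ T₀ := by rw [h]; exact le_sup_right
    have h1 : ∀ q ∈ Q, q * (g⁻¹ * z * g) = (g⁻¹ * z * g) * q := by
      intro q hq
      have h2 : g * q * g⁻¹ ∈ Qt := by
        rw [memQt]
        have : g⁻¹ * (g * q * g⁻¹) * g = q := by group
        rw [this]; exact hq
      have h3 := ((memA _).1 (hT₀A (hQtT h2))).1
      calc q * (g⁻¹ * z * g) = g⁻¹ * ((g * q * g⁻¹) * z) * g := by group
        _ = g⁻¹ * (z * (g * q * g⁻¹)) * g := by rw [h3]
        _ = _ := by group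
    rcases S.cent _ h1 with h2 | h2
    · have := conj_ne_one (g := g⁻¹) S.z1
      rw [inv_inv] at this
      exact this h2
    · apply htz
      rw [htg]
      calc g * z * g⁻¹ = g * (g⁻¹ * z * g) * g⁻¹ := by rw [h2]
        _ = z := by group
  obtain ⟨x, hxT₁, hxT₀, hxN⟩ := Cfsg.Agent.H17.exists_normalizer_not_mem hT₁p hlt
  have hT₁t : T₀ ⊔ Qt ≤ Subgroup.centralizer {t} := by
    refine sup_le ?_ ?_
    · intro y hy
      exact Subgroup.mem_centralizer_singleton_iff.2 ((memA y).1 (hT₀A hy)).2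
    · intro y hy
      exact Subgroup.mem_centralizer_singleton_iff.2 (hQtt y hy)
  have hxt : x * t = t * x := Subgroup.mem_centralizer_singleton_iff.1 (hT₁t hxT₁)
  refine ⟨x, hxt, ?_⟩
  have h1 : ∀ r ∈ Q, r * t = t * r → r * (x * z * x⁻¹) = (x * z * x⁻¹) * r := by
    intro r hr hrt
    have hrT : r ∈ T₀ := hRT₀ ((memR r).2 ⟨hr, hrt⟩)
    have h2 : x⁻¹ * r * x ∈ T₀ := by
      have := (Subgroup.mem_normalizer_iff.1 (Subgroup.inv_mem _ hxN) r).1 hrT
      simpa using this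
    have h3 := ((memA _).1 (hT₀A h2)).1
    calc r * (x * z * x⁻¹) = x * ((x⁻¹ * r * x) * z) * x⁻¹ := by group
      _ = x * (z * (x⁻¹ * r * x)) * x⁻¹ := by rw [h3]
      _ = _ := by group
  rcases S.cent_R ht ht1 htz htt h1 with h | h | h | h
  · exact absurd h (conj_ne_one S.z1)
  · exfalso
    have hxz : x * z = z * x := by
      calc x * z = (x * z * x⁻¹) * x := by group
        _ = z * x := by rw [h]
    have h4 : T₀ ⊔ Subgroup.zpowers x ≤ T₀ := by
      apply hmax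
      · refine ⟨hT₁p.to_le (sup_le le_sup_left (Subgroup.zpowers_le.2 hxT₁)), ?_,
          hRT₀.trans le_sup_left⟩
        exact sup_le hT₀A (Subgroup.zpowers_le.2 ((memA x).2 ⟨hxz, hxt⟩))
      · exact le_sup_left
    exact hxT₀ (h4 ((le_sup_right : Subgroup.zpowers x ≤ _) (Subgroup.mem_zpowers x)))
  · exfalso
    apply htz
    have : x * z * x⁻¹ = x * t * x⁻¹ := by
      rw [h, hxt]; group
    exact (mul_left_cancel (mul_right_cancel this)).symm
  · exact h

/-- an element of order three on `⟨z, t⟩`. -/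
theorem exists_three [Finite G] (S : Setup Q z) {g t : G} (htg : t = g * z * g⁻¹) (ht : t ∈ Q)
    (htz : t ≠ z) : ∃ n, n * z * n⁻¹ = t ∧ n * t * n⁻¹ = z * t := by
  have ht1 : t ≠ 1 := htg ▸ conj_ne_one S.z1
  have htZ : t ∉ (Subgroup.center ↥Q).map Q.subtype := fun h => (S.mem_Z.1 h).elim ht1 htz
  obtain ⟨q₀, hq₀, hq₀t⟩ := exists_conj_mul S.ex S.zZ S.z1 ht htZ
  obtain ⟨x, hxt, hxz⟩ := S.exists_swap htg ht htz
  have hzq : q₀ * z = z * q₀ := S.zc hq₀
  refine ⟨q₀ * x, ?_, ?_⟩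
  · calc q₀ * x * z * (q₀ * x)⁻¹ = q₀ * (x * z * x⁻¹) * q₀⁻¹ := by group
      _ = q₀ * (t * z) * q₀⁻¹ := by rw [hxz]
      _ = (q₀ * t * q₀⁻¹) * (q₀ * z) * q₀⁻¹ := by group
      _ = (z * t) * (z * q₀) * q₀⁻¹ := by rw [hq₀t, hzq]
      _ = z * (t * z) := by group
      _ = z * (z * t) := by rw [S.zc ht]
      _ = (z * z) * t := by group
      _ = t := by rw [S.zz, one_mul]
  · calc q₀ * x * t * (q₀ * x)⁻¹ = q₀ * (x * t) * x⁻¹ * q₀⁻¹ := by group
      _ = q₀ * (t * x) * x⁻¹ * q₀⁻¹ := by rw [hxt]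
      _ = q₀ * t * q₀⁻¹ := by group
      _ = z * t := hq₀t

/-- `z` lies in the conjugate `Q^g`. -/
theorem z_mem_conj [Finite G] (S : Setup Q z) {g : G} (ht : g * z * g⁻¹ ∈ Q)
    (htz : g * z * g⁻¹ ≠ z) : g⁻¹ * z * g ∈ Q := by
  obtain ⟨t, htg⟩ : ∃ t, t = g * z * g⁻¹ := ⟨_, rfl⟩
  rw [← htg] at ht htz
  obtain ⟨n, hnz, hnt⟩ := S.exists_three htg ht htz
  have h1 : (g⁻¹ * n) * z = z * (g⁻¹ * n) := by
    calc (g⁻¹ * n) * z = g⁻¹ * (n * z * n⁻¹) * n := by group
      _ = g⁻¹ * (g * z * g⁻¹) * n := by rw [hnz, htg]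
      _ = _ := by group
  have h2 := (Subgroup.mem_normalizer_iff.1 (S.norm _ h1) t).1 ht
  have h3 : g⁻¹ * n * t * (g⁻¹ * n)⁻¹ = g⁻¹ * (n * t * n⁻¹) * g := by group
  rw [h3, hnt] at h2
  have h4 : g⁻¹ * z * g = (g⁻¹ * (z * t) * g) * z := by
    have : z = g⁻¹ * t * g := by rw [htg]; group
    have htt : t * t = 1 := by
      rw [htg]
      calc g * z * g⁻¹ * (g * z * g⁻¹) = g * (z * z) * g⁻¹ := by group
        _ = 1 := by rw [S.zz]; group
    calc g⁻¹ * z * g = g⁻¹ * (z * (t * t)) * g := by rw [htt, mul_one]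
      _ = (g⁻¹ * (z * t) * g) * (g⁻¹ * t * g) := by group
      _ = _ := by rw [← this]
  rw [h4]
  exact Q.mul_mem h2 S.zQ

end Setup

end Cfsg.Agent.Lib.Helper27.XS
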